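import Mathlib

/-! A coordinate model of the wreath product of the dihedral group of order 8 by a group of order 2. -/

set_option autoImplicit false

namespace H82.DW

/-- `a ^ x * b ^ y * z ^ c`. -/
@[ext] structure D where
  x : Bool
  y : Bool
  c : Bool
deriving DecidableEq, Fintype

instance (priority := high) decAllD (p : D → Prop) [DecidablePred p] : Decidable (∀ w, p w) :=
  decidable_of_iff (∀ x y c, p ⟨x, y, c⟩) ⟨fun h _ => h _ _ _, fun h _ _ _ => h _⟩

instance (priority := high) decExD (p : D → Prop) [DecidablePred p] : Decidable (∃ w, p w) :=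
  decidable_of_iff (∃ x y c, p ⟨x, y, c⟩) ⟨fun ⟨_, _, _, h⟩ => ⟨_, h⟩, fun ⟨w, h⟩ => ⟨w.x, w.y, w.c, h⟩⟩

instance : Group D where
  mul p q := ⟨p.x ^^ q.x, p.y ^^ q.y, p.c ^^ q.c ^^ (p.y && q.x)⟩
  one := ⟨false, false, false⟩
  inv p := ⟨p.x, p.y, p.c ^^ (p.y && p.x)⟩
  mul_assoc := by decide
  one_mul := by decide
  mul_one := by decide
  inv_mul_cancel := by decide

@[ext] structure W where
  l : D
  r : D
  e : Bool
deriving DecidableEq, Fintype

instance (priority := high) decAllW (p : W → Prop) [DecidablePred p] : Decidable (∀ w, p w) :=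
  decidable_of_iff (∀ l r e, p ⟨l, r, e⟩) ⟨fun h _ => h _ _ _, fun h _ _ _ => h _⟩

instance (priority := high) decExW (p : W → Prop) [DecidablePred p] : Decidable (∃ w, p w) :=
  decidable_of_iff (∃ l r e, p ⟨l, r, e⟩) ⟨fun ⟨_, _, _, h⟩ => ⟨_, h⟩, fun ⟨w, h⟩ => ⟨w.l, w.r, w.e, h⟩⟩

def W.mul (u v : W) : W :=
  bif u.e then ⟨u.l * v.r, u.r * v.l, !v.e⟩ else ⟨u.l * v.l, u.r * v.r, v.e⟩

def W.inv (u : W) : W := bif u.e then ⟨u.r⁻¹, u.l⁻¹, true⟩ else ⟨u.l⁻¹, u.r⁻¹, false⟩

instance : Group W where
  mul := W.mul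
  one := ⟨1, 1, false⟩
  inv := W.inv
  mul_assoc := by
    rintro ⟨a, b, e⟩ ⟨c, d, f⟩ ⟨g, h, k⟩
    change W.mul (W.mul _ _) _ = W.mul _ (W.mul _ _)
    cases e <;> cases f <;> simp [W.mul, mul_assoc]
  one_mul := by decide +kernel
  mul_one := by decide +kernel
  inv_mul_cancel := by decide +kernel

theorem card_W : Nat.card W = 128 := by
  rw [Nat.card_eq_fintype_card]; decide +kernel

def actD (d : D) (p : Bool × Bool) : Bool × Bool :=
  (p.1 ^^ d.c ^^ (d.x && !(p.2 ^^ d.y)), p.2 ^^ d.y)

theorem actD_mul : ∀ u v : D, ∀ p, actD (u * v) p = actD u (actD v p) := by decide +kernel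

def act (w : W) (p : (Bool × Bool) × Bool) : (Bool × Bool) × Bool :=
  (actD (bif p.2 ^^ w.e then w.r else w.l) p.1, p.2 ^^ w.e)

instance : MulAction W ((Bool × Bool) × Bool) where
  smul := act
  one_smul := by change ∀ p, act 1 p = p; decide +kernel
  mul_smul := by
    rintro ⟨a, b, e⟩ ⟨c, d, f⟩ ⟨p, k⟩
    change act (W.mul _ _) _ = act _ (act _ _)
    cases e <;> cases f <;> cases k <;> simp [act, W.mul, actD_mul]

theorem act_faith : ∀ w : W, (∀ p, act w p = p) → w = 1 := by decide +kernel

theorem exists_equiv (T : Sylow 2 (Equiv.Perm (Fin 8))) :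
    Nonempty (W ≃* (T : Subgroup (Equiv.Perm (Fin 8)))) := by
  let e : ((Bool × Bool) × Bool) ≃ Fin 8 := Fintype.equivFinOfCardEq (by decide)
  let f : W →* Equiv.Perm (Fin 8) :=
    e.permCongrHom.toMonoidHom.comp (MulAction.toPermHom W ((Bool × Bool) × Bool))
  have hf : Function.Injective f := by
    refine e.permCongrHom.injective.comp ((injective_iff_map_eq_one _).mpr fun w hw => ?_)
    exact act_faith w fun p => Equiv.ext_iff.mp hw p
  have hc : Nat.card f.range = 2 ^ (Nat.card (Equiv.Perm (Fin 8))).factorization 2 := by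
    rw [← Nat.card_congr (MonoidHom.ofInjective hf).toEquiv, card_W, Nat.card_perm, Nat.card_fin,
      show Nat.factorial 8 = 2 ^ 7 * 315 by decide, Nat.factorization_mul (by decide) (by decide),
      Finsupp.add_apply, Nat.Prime.factorization_pow Nat.prime_two,
      Nat.factorization_eq_zero_of_not_dvd (by decide)]
    simp
  exact ⟨(MonoidHom.ofInjective hf).trans ((Sylow.ofCard f.range hc).equiv T)⟩

def a : W := ⟨⟨true, false, false⟩, 1, false⟩
def b : W := ⟨⟨false, true, false⟩, 1, false⟩
def t : W := ⟨1, 1, true⟩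
def z : W := ⟨⟨false, false, true⟩, ⟨false, false, true⟩, false⟩

section
variable {G H : Type*} [Group G] [Group H]

def nd (A B : G) (d : D) : G :=
  (bif d.x then A else 1) * (bif d.y then B else 1) * (bif d.c then A * B * (A * B) else 1)

/-- The normal form in the generators. -/
def nf (A B T : G) (w : W) : G := nd A B w.l * T * nd A B w.r * T * (bif w.e then T else 1)

theorem map_nd (f : G →* H) (A B : G) (d : D) : f (nd A B d) = nd (f A) (f B) d := by
  obtain ⟨x, y, c⟩ := d
  cases x <;> cases y <;> cases c <;> simp [nd]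

theorem map_nf (f : G →* H) (A B T : G) (w : W) : f (nf A B T w) = nf (f A) (f B) (f T) w := by
  obtain ⟨l, r, e⟩ := w
  cases e <;> simp [nf, map_nd]

theorem nf_eq : ∀ w, nf a b t w = w := by decide +kernel

theorem hom_eq (f : W →* H) (w : W) : f w = nf (f a) (f b) (f t) w := by
  rw [← map_nf, nf_eq]

end

def ra (s e : Bool) : W := ⟨⟨!s, s, false⟩, ⟨false, false, e⟩, false⟩
def rb (s f : Bool) : W := ⟨⟨s, !s, false⟩, ⟨false, false, f⟩, false⟩

/-- Representatives of the outer automorphisms. -/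
def al (s e f : Bool) (w : W) : W := nf (ra s e) (rb s f) t w

theorem t_cases : ∀ T : W, T * T = 1 → (∃ w : W, w * T * w⁻¹ = t) ∨ ∀ X : W,
    X * X * (X * X) = 1 → X * (T * X * T) = T * X * T * X → X * X * T * (X * X) * T = 1 := by
  decide +kernel

theorem aut_cases : ∀ A : W, A * A = 1 → A * (t * A * t) = t * A * t * A →
    ∀ B : W, B * B = 1 → B * (t * B * t) = t * B * t * B → A * (t * B * t) = t * B * t * A →
    A * B * (A * B) * (A * B * (A * B)) = 1 → A * B * (A * B) * t * (A * B * (A * B)) * t ≠ 1 →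
    ∃ w : W, w * t * w⁻¹ = t ∧ ∃ s e f, w * A * w⁻¹ = ra s e ∧ w * B * w⁻¹ = rb s f := by
  decide +kernel

theorem exists_al' (φ : W →* W) (hφ : Function.Injective φ) (ht : φ t = t) :
    ∃ w s e f, ∀ u, w * φ u * w⁻¹ = al s e f u := by
  have k : ∀ {u v : W}, u = v → φ u = φ v := congrArg φ
  obtain ⟨w, h1, s, e, f, h2, h3⟩ := aut_cases (φ a) (by simpa using k (by decide : a * a = 1))
    (by simpa [ht] using k (by decide : a * (t * a * t) = t * a * t * a))
    (φ b) (by simpa using k (by decide : b * b = 1))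
    (by simpa [ht] using k (by decide : b * (t * b * t) = t * b * t * b))
    (by simpa [ht] using k (by decide : a * (t * b * t) = t * b * t * a))
    (by simpa using k (by decide : a * b * (a * b) * (a * b * (a * b)) = 1))
    (fun h => (by decide : a * b * (a * b) * t * (a * b * (a * b)) * t ≠ 1)
      (hφ (by simpa [ht] using h)))
  refine ⟨w, s, e, f, fun u => ?_⟩
  have := hom_eq ((MulAut.conj w).toMonoidHom.comp φ) u
  simpa [h1, h2, h3, al, ht] using this

theorem exists_al (φ : W →* W) (hφ : Function.Injective φ) :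
    ∃ w s e f, ∀ u, w * φ u * w⁻¹ = al s e f u := by
  have k : ∀ {u v : W}, u = v → φ u = φ v := congrArg φ
  rcases t_cases (φ t) (by simpa using k (by decide : t * t = 1)) with ⟨w, hw⟩ | h
  · obtain ⟨v, s, e, f, h⟩ := exists_al' ((MulAut.conj w).toMonoidHom.comp φ)
      ((MulAut.conj w).injective.comp hφ) hw
    exact ⟨v * w, s, e, f, fun u => by rw [← h u]; simp [mul_assoc]⟩
  · exact absurd (hφ (by
      simpa using h (φ (a * b)) (by simpa using k (by decide : a * b * (a * b) * (a * b * (a * b)) = 1))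
        (by simpa using k (by decide : a * b * (t * (a * b) * t) = t * (a * b) * t * (a * b)))))
      (by decide : a * b * (a * b) * t * (a * b * (a * b)) * t ≠ 1)

theorem ind {P : W → Prop} (h1 : P 1) (ha : P a) (hb : P b) (ht : P t)
    (hm : ∀ u v, P u → P v → P (u * v)) (w : W) : P w := by
  have hd : ∀ d, P (nd a b d) := by
    rintro ⟨x, y, c⟩
    refine hm _ _ (hm _ _ ?_ ?_) ?_
    · cases x; exacts [h1, ha]
    · cases y; exacts [h1, hb]
    · cases c; exacts [h1, hm _ _ (hm _ _ ha hb) (hm _ _ ha hb)]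
  rw [← nf_eq w]
  refine hm _ _ (hm _ _ (hm _ _ (hm _ _ (hd _) ht) (hd _)) ht) ?_
  cases w.e; exacts [h1, ht]

/-- The base group, its centre and the two normal elementary abelian subgroups of order 16. -/
def Bs : Subgroup W where
  carrier := {w | w.e = false}
  mul_mem' := fun {u v} => (by decide +kernel : ∀ u v : W, u.e = false → v.e = false → (u * v).e = false) u v
  one_mem' := rfl
  inv_mem' := fun {u} => (by decide +kernel : ∀ u : W, u.e = false → u⁻¹.e = false) u

def zb (w : W) : Bool := !w.e && !w.l.x && !w.l.y && !w.r.x && !w.r.y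
def v1 (w : W) : Bool := !w.e && !w.l.y && !w.r.y
def v2 (w : W) : Bool := !w.e && !w.l.x && !w.r.x

def Zb : Subgroup W where
  carrier := {w | zb w = true}
  mul_mem' := fun {u v} => (by decide +kernel : ∀ u v : W, zb u = true → zb v = true → zb (u * v) = true) u v
  one_mem' := rfl
  inv_mem' := fun {u} => (by decide +kernel : ∀ u : W, zb u = true → zb u⁻¹ = true) u

def V1 : Subgroup W where
  carrier := {w | v1 w = true}
  mul_mem' := fun {u v} => (by decide +kernel : ∀ u v : W, v1 u = true → v1 v = true → v1 (u * v) = true) u v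
  one_mem' := rfl
  inv_mem' := fun {u} => (by decide +kernel : ∀ u : W, v1 u = true → v1 u⁻¹ = true) u

theorem card_Bs : Nat.card Bs = 64 := by
  change Nat.card {w : W // w.e = false} = 64
  rw [Nat.card_eq_fintype_card]; decide +kernel
theorem card_Zb : Nat.card Zb = 4 := by
  change Nat.card {w : W // zb w = true} = 4
  rw [Nat.card_eq_fintype_card]; decide +kernel
theorem card_V1 : Nat.card V1 = 16 := by
  change Nat.card {w : W // v1 w = true} = 16
  rw [Nat.card_eq_fintype_card]; decide +kernel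

theorem v1_conj : ∀ u, v1 u = true → ∀ w, v1 (w * u * w⁻¹) = true := by decide +kernel
theorem v2_conj : ∀ u, v2 u = true → ∀ w, v2 (w * u * w⁻¹) = true := by decide +kernel
theorem zb_conj : ∀ u, zb u = true → ∀ w, zb (w * u * w⁻¹) = true := by decide +kernel
theorem v1_sq : ∀ u, v1 u = true → u * u = 1 ∧ ∀ v, v1 v = true → u * v = v * u := by decide +kernel
theorem al_v : ∀ e f u, (v1 u = true → v1 (al false e f u) = true ∧ v2 (al true e f u) = true) ∧
    (v2 u = true → v1 (al true e f u) = true) := by decide +kernel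
theorem cent : ∀ c : W, c * a = a * c → c * b = b * c → c * t = t * c → c = 1 ∨ c = z := by
  decide +kernel
theorem z_cent : ∀ c : W, c * z = z * c := by decide +kernel
theorem al_z : ∀ s e f u, zb u = true → al s e f u = u := by decide +kernel
theorem al_B : ∀ e f (u : W), u.e = false → (al false e f u).e = false ∧ zb (u * u) = true ∧
    zb (u * al false e f u) = true := by decide +kernel
theorem al_sq : ∀ s e f (c : W), c * a * c⁻¹ = al s e f (al s e f a) →
    c * b * c⁻¹ = al s e f (al s e f b) → c * t * c⁻¹ = al s e f (al s e f t) →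
    (c = 1 ∨ c = z) ∧ (s = true → e = f) := by decide +kernel
theorem al_sw : ∀ e f (v : W), v * v = 1 → (∀ g, v * (g * v * g⁻¹) = g * v * g⁻¹ * v) →
    v * al true e f v = al true e f v * v → zb v = true := by decide +kernel

def p0 (w : W) : W := nf t ⟨⟨true, true, false⟩, ⟨true, true, true⟩, true⟩
  ⟨1, ⟨false, true, false⟩, false⟩ w

theorem p0_mul (u v : W) : p0 (u * v) = p0 u * p0 v :=
  ind (P := fun v => ∀ u, p0 (u * v) = p0 u * p0 v) (by decide +kernel) (by decide +kernel)
    (by decide +kernel) (by decide +kernel)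
    (fun x y hx hy u => by rw [← mul_assoc, hy, hx, hy, mul_assoc]) v u

def sg (e : Bool) : W := ⟨⟨true, false, false⟩, ⟨false, true, e⟩, false⟩

theorem sg_conj : ∀ e u, sg e * p0 u = p0 (al true e e u) * sg e := by decide +kernel
theorem sg_sq : ∀ e, sg e * sg e = 1 := by decide +kernel
theorem p0_ker : ∀ e u, (p0 u = 1 ↔ u = 1 ∨ u = z) ∧ p0 u * sg e ≠ 1 := by decide +kernel
theorem p0_surj : ∀ e w, ∃ u, p0 u = w ∨ p0 u * sg e = w := by decide +kernel

end H82.DW
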