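import Mathlib
import Cfsg.Prelude.Def_CaseTheorems
import Cfsg.Agent.Lib.LocEven.Basic
import Cfsg.Agent.Lib.DW82.A

/-! The wreath product `D₈ ≀ 2` inside a 2-group of sectional rank at most 4. -/

set_option autoImplicit false
set_option linter.unusedSectionVars false

namespace H82.DW

open Subgroup Cfsg H68

variable {S : Type*} [Group S] [Finite S] {ι : W →* S}

theorem mr (w : W) : ι w ∈ ι.range := ⟨w, rfl⟩

theorem exists_act (hι : Function.Injective ι) {s : S} (hs : s ∈ normalizer (ι.range : Set S)) :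
    ∃ w σ e f, ∀ u, ι w * s * ι u * (ι w * s)⁻¹ = ι (al σ e f u) := by
  let E := MonoidHom.ofInjective hι
  let φ : W ≃* W := (E.trans (ι.range.normalizerMonoidHom ⟨s, hs⟩)).trans E.symm
  have h : ∀ u, ι (φ u) = s * ι u * s⁻¹ := fun u =>
    congrArg Subtype.val (E.apply_symm_apply (ι.range.normalizerMonoidHom ⟨s, hs⟩ (E u)))
  obtain ⟨w, σ, e, f, hw⟩ := exists_al φ.toMonoidHom φ.injective
  refine ⟨w, σ, e, f, fun u => ?_⟩
  rw [← hw u, map_mul, map_mul, map_inv, MulEquiv.coe_toMonoidHom, h]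
  group

theorem sq_cases (hι : Function.Injective ι) {s : S} {σ e f : Bool} {c : W} (hc : ι c = s * s)
    (h : ∀ u, s * ι u * s⁻¹ = ι (al σ e f u)) : (c = 1 ∨ c = z) ∧ (σ = true → e = f) := by
  have k : ∀ u, c * u * c⁻¹ = al σ e f (al σ e f u) := fun u => hι (by
    rw [← h, ← h, map_mul, map_mul, map_inv, hc]; group)
  exact al_sq σ e f c (k a) (k b) (k t)

theorem not_inner (hr : SectionalPRankLE 2 4 S) (hι : Function.Injective ι) {s : S} {e f : Bool}
    (hs : s ∉ ι.range) (hss : s * s ∈ ι.range)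
    (h : ∀ u, s * ι u * s⁻¹ = ι (al false e f u)) : False := by
  obtain ⟨c, hc⟩ := hss
  have hz : c ∈ Zb := by rcases (sq_cases hι hc h).1 with rfl | rfl <;> rfl
  have hcB : c ∈ Bs := by rcases (sq_cases hι hc h).1 with rfl | rfl <;> rfl
  have h' : ∀ u, s * ι u = ι (al false e f u) * s := fun u => by rw [← h]; group
  have hB : ∀ u ∈ Bs, al false e f u ∈ Bs := fun u hu => (al_B e f u hu).1
  let H : Subgroup S :=
    { carrier := {x | ∃ u ∈ Bs, x = ι u ∨ x = ι u * s}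
      one_mem' := ⟨1, one_mem _, Or.inl (map_one ι).symm⟩
      mul_mem' := by
        rintro _ _ ⟨u, hu, rfl | rfl⟩ ⟨v, hv, rfl | rfl⟩
        · exact ⟨u * v, mul_mem hu hv, Or.inl (map_mul ι u v).symm⟩
        · exact ⟨u * v, mul_mem hu hv, Or.inr (by rw [map_mul, mul_assoc])⟩
        · exact ⟨_, mul_mem hu (hB v hv), Or.inr (by rw [map_mul, mul_assoc, h', mul_assoc])⟩
        · exact ⟨_, mul_mem (mul_mem hu (hB v hv)) hcB, Or.inl (by
            rw [map_mul, map_mul, ← h, hc]; group)⟩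
      inv_mem' := by
        rintro _ ⟨u, hu, rfl | rfl⟩
        · exact ⟨u⁻¹, inv_mem hu, Or.inl (map_inv ι u).symm⟩
        · exact ⟨_, mul_mem (inv_mem hcB) (hB _ (inv_mem hu)), Or.inr (by
            rw [map_mul, map_inv, ← h, hc, map_inv]; group)⟩ }
  have hN : ((Zb.map ι).subgroupOf H).Normal := by
    refine ⟨?_⟩
    rintro ⟨_, hx⟩ ⟨v, hv, rfl⟩ ⟨_, u, hu, rfl | rfl⟩
    · exact ⟨u * v * u⁻¹, zb_conj v hv u, by simp⟩
    · refine ⟨u * v * u⁻¹, zb_conj v hv u, ?_⟩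
      change _ = ι u * s * ι v * (ι u * s)⁻¹
      calc ι (u * v * u⁻¹) = ι u * ι (al false e f v) * (ι u)⁻¹ := by rw [al_z _ _ _ v hv]; simp
        _ = _ := by rw [← h]; group
  have hsq : ∀ x : H ⧸ (Zb.map ι).subgroupOf H, x ^ 2 = 1 := by
    intro x
    obtain ⟨⟨_, u, hu, rfl | rfl⟩, rfl⟩ := QuotientGroup.mk_surjective x
    · rw [← QuotientGroup.mk_pow, QuotientGroup.eq_one_iff]
      exact ⟨u * u, (al_B e f u hu).2.1, by simp [pow_two]⟩
    · rw [← QuotientGroup.mk_pow, QuotientGroup.eq_one_iff]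
      refine ⟨u * al false e f u * c, mul_mem (al_B e f u hu).2.2 hz, ?_⟩
      change _ = (ι u * s) ^ 2
      rw [map_mul, map_mul, ← h, hc, pow_two]; group
  have h1 := hr H ((Zb.map ι).subgroupOf H) ⊤ ⟨⟨fun x y => Subtype.ext
    (Commute.of_orderOf_dvd_two (fun g => orderOf_dvd_of_pow_eq_one (hsq g)) _ _).eq⟩⟩
    fun x _ => hsq x
  have hZH : Zb.map ι ≤ H := by
    rintro _ ⟨v, hv, rfl⟩
    exact ⟨v, (by decide +kernel : ∀ v : W, zb v = true → v.e = false) v hv, Or.inl rfl⟩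
  have h2 := card_eq_card_quotient_mul_card_subgroup ((Zb.map ι).subgroupOf H)
  rw [card_top] at h1
  rw [Nat.card_congr (subgroupOfEquivOfLe hZH).toEquiv, card_map_of_injective hι, card_Zb] at h2
  have h3 : Bs.map ι = H := by
    refine eq_of_le_of_card_ge ?_ (by rw [card_map_of_injective hι, card_Bs]; omega)
    rintro _ ⟨v, hv, rfl⟩
    exact ⟨v, hv, Or.inl rfl⟩
  obtain ⟨v, -, hv⟩ := h3.ge (⟨1, one_mem _, Or.inr (by simp)⟩ : s ∈ H)
  exact hs ⟨v, hv⟩

theorem exists_step {N : Subgroup S} {y : S} {k : ℕ} (hk : y ^ 2 ^ k = 1) (hn : y ∉ N) :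
    ∃ j : ℕ, y ^ j ∉ N ∧ y ^ j * y ^ j ∈ N := by
  induction k generalizing y with
  | zero => exact absurd (by rw [show y = 1 by simpa using hk]; exact one_mem _) hn
  | succ k ih =>
    by_cases h2 : y * y ∈ N
    · exact ⟨1, by rwa [pow_one], by rwa [pow_one]⟩
    · obtain ⟨j, hj⟩ := ih (by rw [← pow_two, ← pow_mul, ← pow_succ', hk]) h2
      exact ⟨2 * j, by rwa [pow_mul, pow_two]⟩

theorem adj {s : S} (hs : s ∈ normalizer (ι.range : Set S)) (hn : s ∉ ι.range)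
    (hss : s * s ∈ ι.range) (w : W) : ι w * s ∉ ι.range ∧ ι w * s * (ι w * s) ∈ ι.range := by
  refine ⟨fun h => hn ((mul_mem_cancel_left (mr w)).mp h), ?_⟩
  have := mul_mem (mul_mem (mr w) (conj_mem_of_mem_normalizer hs (mr w))) hss
  convert this using 1
  group

theorem norm_eq (h2 : IsPGroup 2 S) (hr : SectionalPRankLE 2 4 S) (hι : Function.Injective ι)
    {V : Subgroup S} (hV : V ≤ ι.range) (hn : ∀ g ∈ ι.range, ∀ v ∈ V, g * v * g⁻¹ ∈ V)
    (hsq : ∀ v ∈ V, v * v = 1) (hcm : ∀ u ∈ V, ∀ v ∈ V, u * v = v * u) (hc : Nat.card V = 16) :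
    normalizer (V : Set S) = ι.range := by
  have : Fact (Nat.Prime 2) := ⟨Nat.prime_two⟩
  have hle : ι.range ≤ normalizer (V : Set S) :=
    le_normalizer_of_forall_cj_le fun g hg => cj_le_iff'.mpr (hn g hg)
  by_contra hne
  obtain ⟨y, hyV, hy, hyN⟩ := exists_mem_normalizer_of_lt (h2.to_subgroup _)
    (lt_of_le_of_ne hle (Ne.symm hne))
  obtain ⟨k, hk⟩ := h2 y
  obtain ⟨j, h3, h4⟩ := exists_step hk hy
  obtain ⟨w, σ, e, f, h⟩ := exists_act hι (pow_mem hyN j)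
  obtain ⟨h5, h6⟩ := adj (pow_mem hyN j) h3 h4 w
  cases σ
  · exact not_inner hr hι h5 h6 h
  have h7 : V ≤ Zb.map ι := fun x hx => by
    obtain ⟨v, rfl⟩ := hV hx
    refine ⟨v, al_sw e f v (hι (by simpa using hsq _ hx)) (fun g => hι ?_) (hι ?_), rfl⟩
    · simpa using hcm _ hx _ (hn _ ⟨g, rfl⟩ _ hx)
    · rw [map_mul, map_mul, ← h]
      exact hcm _ hx _ (conj_mem_of_mem_normalizer (mul_mem (hle ⟨w, rfl⟩) (pow_mem hyV j)) hx)
  have := card_le_of_le h7
  rw [card_map_of_injective hι, card_Zb] at this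
  omega

theorem norm_V1 (h2 : IsPGroup 2 S) (hr : SectionalPRankLE 2 4 S) (hι : Function.Injective ι) :
    normalizer ((V1.map ι : Subgroup S) : Set S) = ι.range := by
  refine norm_eq h2 hr hι (map_le_range ι _) ?_ ?_ ?_ (by rw [card_map_of_injective hι, card_V1])
  · rintro _ ⟨g, rfl⟩ _ ⟨v, hv, rfl⟩
    exact ⟨g * v * g⁻¹, v1_conj v hv g, by simp⟩
  · rintro _ ⟨v, hv, rfl⟩
    rw [← map_mul, (v1_sq v hv).1, map_one]
  · rintro _ ⟨u, hu, rfl⟩ _ ⟨v, hv, rfl⟩
    rw [← map_mul, (v1_sq u hu).2 v hv, map_mul]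

theorem exists_sw (h2 : IsPGroup 2 S) (hr : SectionalPRankLE 2 4 S) (hι : Function.Injective ι)
    {s : S} (hs : s ∈ normalizer (ι.range : Set S)) (hn : s ∉ ι.range) :
    ∃ w e f, ∀ u, ι w * s * ι u * (ι w * s)⁻¹ = ι (al true e f u) := by
  obtain ⟨w, σ, e, f, h⟩ := exists_act hι hs
  cases σ
  · refine absurd ((mul_mem_cancel_left (mr w)).mp ((norm_V1 h2 hr hι).le
      (mem_normalizer_of_cj_le (cj_le_iff'.mpr ?_)))) hn
    rintro _ ⟨v, hv, rfl⟩
    exact ⟨_, ((al_v e f v).1 hv).1, (h v).symm⟩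
  · exact ⟨w, e, f, h⟩

theorem mul_mem_range (h2 : IsPGroup 2 S) (hr : SectionalPRankLE 2 4 S) (hι : Function.Injective ι)
    {r s : S} (hr' : r ∈ normalizer (ι.range : Set S)) (hn' : r ∉ ι.range)
    (hs : s ∈ normalizer (ι.range : Set S)) (hn : s ∉ ι.range) : r * s ∈ ι.range := by
  obtain ⟨w, e, f, h⟩ := exists_sw h2 hr hι hs hn
  obtain ⟨w', e', f', h'⟩ := exists_sw h2 hr hι hr' hn'
  refine (mul_mem_cancel_left (mr w')).mp ((norm_V1 h2 hr hι).le
    (mem_normalizer_of_cj_le (cj_le_iff'.mpr ?_)))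
  rintro _ ⟨v, hv, rfl⟩
  refine ⟨_, (al_v e' f' _).2 (v2_conj _ ((al_v e f v).1 hv).2 w⁻¹), ?_⟩
  rw [← h', map_mul, map_mul, ← h]
  simp only [map_inv]
  group

theorem center_eq (h2 : IsPGroup 2 S) (hr : SectionalPRankLE 2 4 S) (hι : Function.Injective ι)
    (x : S) : x ∈ center S ↔ x = 1 ∨ x = ι z := by
  have : Fact (Nat.Prime 2) := ⟨Nat.prime_two⟩
  have k : ∀ x ∈ center S, x = 1 ∨ x = ι z := fun x hx => by
    obtain ⟨c, rfl⟩ := (norm_V1 h2 hr hι).le (center_le_normalizer _ hx)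
    have h := fun u => hι (by simpa using (mem_center_iff.mp hx (ι u)).symm : ι (c * u) = ι (u * c))
    rcases cent c (h a) (h b) (h t) with rfl | rfl
    · exact Or.inl (map_one ι)
    · exact Or.inr rfl
  refine ⟨k x, ?_⟩
  rintro (rfl | rfl)
  · exact one_mem _
  · have : Nontrivial S := ⟨ι z, ι 1, fun e => (by decide : z ≠ 1) (hι e)⟩
    obtain ⟨⟨y, hy⟩, h1⟩ := (nontrivial_iff_exists_ne 1).mp h2.center_nontrivial
    rcases k y hy with e | e
    · exact absurd (Subtype.ext e) h1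
    · exact e ▸ hy

theorem exists_hom (h2 : IsPGroup 2 S) (hr : SectionalPRankLE 2 4 S) (hι : Function.Injective ι)
    {r : S} (hr' : r ∈ normalizer (ι.range : Set S)) (hn' : r ∉ ι.range) :
    ∃ F : normalizer (ι.range : Set S) →* W, Function.Surjective F ∧
      F.ker = (center S).subgroupOf _ := by
  classical
  obtain ⟨w, e, f, h⟩ := exists_sw h2 hr hι hr' hn'
  obtain ⟨hn, c, hc⟩ := adj hr' hn' (mul_mem_range h2 hr hι hr' hn' hr' hn') w
  have hs : ι w * r ∈ normalizer (ι.range : Set S) := mul_mem (le_normalizer ⟨w, rfl⟩) hr'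
  generalize ι w * r = s at *
  obtain ⟨hc', hef⟩ := sq_cases hι hc h
  obtain rfl := hef rfl
  have hpc : p0 c = 1 := (p0_ker e c).1.mpr hc'
  let g : S → W := fun x => if x ∈ ι.range then p0 (Function.invFun ι x)
    else p0 (Function.invFun ι (x * s⁻¹)) * sg e
  have g1 : ∀ u, g (ι u) = p0 u := fun u => by
    simp only [g]; rw [if_pos ⟨u, rfl⟩, Function.leftInverse_invFun hι]
  have g2 : ∀ u, g (ι u * s) = p0 u * sg e := fun u => by
    simp only [g]
    rw [if_neg fun h => hn ((mul_mem_cancel_left (mr u)).mp h), mul_inv_cancel_right,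
      Function.leftInverse_invFun hι]
  have rep : ∀ x : normalizer (ι.range : Set S), ∃ u, (x : S) = ι u ∨ (x : S) = ι u * s := by
    intro x
    by_cases hx : (x : S) ∈ ι.range
    · obtain ⟨u, hu⟩ := hx
      exact ⟨u, Or.inl hu.symm⟩
    · obtain ⟨u, hu⟩ := mul_mem_range h2 hr hι x.2 hx (inv_mem hs) (by rwa [inv_mem_iff])
      exact ⟨u, Or.inr (by rw [hu]; group)⟩
  refine ⟨MonoidHom.mk' (fun x => g x) fun x y => ?_, fun v => ?_, ?_⟩
  · obtain ⟨u, hu | hu⟩ := rep x <;> obtain ⟨v, hv | hv⟩ := rep y <;> rw [coe_mul, hu, hv]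
    · rw [← map_mul, g1, g1, g1, p0_mul]
    · rw [← mul_assoc, ← map_mul, g1, g2, g2, p0_mul, mul_assoc]
    · rw [show ι u * s * ι v = ι (u * al true e e v) * s by rw [map_mul, ← h]; group, g1, g2, g2,
        p0_mul, mul_assoc, mul_assoc, sg_conj]
    · rw [show ι u * s * (ι v * s) = ι (u * al true e e v * c) by
        rw [map_mul, map_mul, ← h, hc]; group, g1, g2, g2, p0_mul, p0_mul, hpc, mul_one,
        ← mul_assoc, mul_assoc (p0 u), sg_conj, mul_assoc, mul_assoc, sg_sq, mul_one]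
  · obtain ⟨u, rfl | rfl⟩ := p0_surj e v
    · exact ⟨⟨ι u, le_normalizer ⟨u, rfl⟩⟩, g1 u⟩
    · exact ⟨⟨ι u * s, mul_mem (le_normalizer ⟨u, rfl⟩) hs⟩, g2 u⟩
  · ext x
    rw [MonoidHom.mem_ker, mem_subgroupOf, center_eq h2 hr hι]
    change g x = 1 ↔ _
    obtain ⟨u, hu | hu⟩ := rep x <;> rw [hu]
    · rw [g1, (p0_ker e u).1, ← map_one ι, hι.eq_iff, hι.eq_iff]
    · rw [g2]
      refine ⟨fun h => absurd h (p0_ker e u).2, fun h => absurd ?_ hn⟩
      refine (mul_mem_cancel_left (mr u)).mp ?_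
      rcases h with h | h <;> rw [h]
      exacts [one_mem _, ⟨z, rfl⟩]

end H82.DW
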